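import Groth.Agent.Models.H65.PicDeg
import Groth.Agent.Models.H71.Comps
import Groth.Agent.Dix.IdealModCartier

/-!
# The modules `O_X(Γ)` of vertical components are trivial on the generic fibre
-/

set_option autoImplicit false
universe u

open CategoryTheory CategoryTheory.Limits AlgebraicGeometry Opposite TopologicalSpace

namespace Groth.Agent.Models.H65.GenTriv

open Groth.Agent.Grpsch.PicGrp Groth.Agent.Fdesc.LocGen Groth.Agent.Dix.IdealModCartier
open Groth.Agent.Divis.EffCartier Groth.Agent.Models.H65.PicDeg

section General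

variable {X Y : Scheme.{u}}

/-- The ideal module of the unit ideal is the structure sheaf. -/
theorem idealMod_top : Nonempty (ClSub.idealMod (⊤ : X.IdealSheafData) ≅ Coh.structureModule X) := by
  obtain ⟨e⟩ := idealMod_principal (X := X) (D := ⊤) (a := 1) (by
    intro W hW
    rw [map_one]
    refine ⟨one_mem _, ?_⟩
    rw [Ideal.span_singleton_one]
    rfl)
  exact ⟨e.symm⟩

/-- The ideal module of an effective Cartier divisor pulls back to the structure sheaf along a morphism
whose image misses the divisor. -/
theorem pullback_idealMod_trivial (g : Y ⟶ X) {D : X.IdealSheafData}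
    (hD : BlowUp.IsEffCartierIdeal D) (h : ∀ y : Y, g y ∉ D.support) :
    Nonempty ((Scheme.Modules.pullback g).obj (ClSub.idealMod D) ≅ Coh.structureModule Y) := by
  have h1 : D.comap g = ⊤ := by
    rw [← Scheme.IdealSheafData.support_eq_bot_iff]
    refine le_bot_iff.1 fun y hy => ?_
    rw [Scheme.IdealSheafData.support_comap] at hy
    exact (h y hy).elim
  have h2 : BlowUp.IsEffCartierIdeal (D.comap g) := by rw [h1]; exact isEff_top
  obtain ⟨e⟩ := pullback_idealMod g hD h2
  obtain ⟨e'⟩ := idealMod_top (X := Y)
  rw [h1] at e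
  exact ⟨e ≪≫ e'⟩

end General

section Model

variable {R : Type u} [CommRing R] [IsDomain R] [IsDiscreteValuationRing R]
  {C X : Scheme.{u}} {f : C ⟶ Spec (CommRingCat.of (FractionRing R))} {p : X ⟶ Spec (CommRingCat.of R)}
  {g : C ⟶ X}

/-- The generic fibre misses every vertical component. -/
theorem notMem_support
    (hg : IsPullback g f p (Spec.map (CommRingCat.ofHom (algebraMap R (FractionRing R)))))
    (Γ : ArSurf.VertComp R (Over.mk p)) (c : C) : g c ∉ Γ.ι.ker.support := by
  intro hc
  have h1 : (Γ.ι.ker.support : Set (Over.mk p).left) =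
      Set.range (Γ.ι.base : Γ.curve.left → (Over.mk p).left) := by
    have := Scheme.Hom.support_ker Γ.ι
    rw [Γ.ι.isClosedEmbedding.isClosed_range.closure_eq] at this
    exact this
  have h2 : g c ∈ Models.specialFibreSet R (Over.mk p) := by
    apply Groth.Agent.Models.H71.Comps.rg_subset Γ
    have h4 : g c ∈ (Γ.ι.ker.support : Set (Over.mk p).left) := hc
    rw [h1] at h4
    exact h4
  have h3 : g c ∈ Set.range g := ⟨c, rfl⟩
  rw [Groth.Agent.Models.H71.Comps.range_generic_eq_compl hg] at h3
  exact h3 h2

/-- `O_X(Γ)` is trivial on the generic fibre. -/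
theorem pull_mk_eq_one
    (hg : IsPullback g f p (Spec.map (CommRingCat.ofHom (algebraMap R (FractionRing R)))))
    (Γ : ArSurf.VertComp R (Over.mk p)) {L : X.Modules}
    (hL : ClSub.IsInverseOf L (ClSub.idealMod Γ.ι.ker)) (hL' : PicF.IsInvertible L) :
    pull g (mk L hL') = 1 := by
  obtain ⟨-, hI⟩ := isInvertible_of_isInverseOf hL
  rw [mk_of_isInverseOf hL' hI hL, map_inv, inv_eq_one, pull_mk, mk_eq_one_iff]
  exact pullback_idealMod_trivial g (isEffCartierIdeal_of_isInvertible hI) (notMem_support hg Γ)

end Model

end Groth.Agent.Models.H65.GenTriv
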