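import Groth.Agent.Grpsch.PicGrp
import Groth.Agent.Dix.InterNum
import Groth.Prelude.Def_ModelsG

/-!
# The Picard group and degrees on vertical components

* `mk_tensorList`, `mk_multiTwist`: classes of tensor monomials in the Picard group.
* `degHom Γ : Pic X →* Multiplicative ℤ` for `X` proper over a discrete valuation ring and a vertical
  component `Γ`, with `degHom Γ (mk L hL) = ofAdd (ArSurf.inter R X L Γ)`.
* `deg Γ : Pic X → ℤ` with `deg_mul`, `deg_pow`, `deg_zpow`, `deg_prod_zpow`.
-/

set_option autoImplicit false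
universe u

open CategoryTheory CategoryTheory.Limits AlgebraicGeometry Opposite TopologicalSpace

namespace Groth.Agent.Models.H65.PicDeg

open Groth.Agent.Grpsch.PicGrp Groth.Agent.Fdesc.LocGen

section General

variable {X : Scheme.{u}}

theorem isInvertible_tensorList {l : List X.Modules} (hl : ∀ M ∈ l, PicF.IsInvertible M) :
    PicF.IsInvertible (FGA.tensorList l) := by
  induction l with
  | nil => exact isInvertible_structureModule
  | cons M l ih =>
    exact isInvertible_tensorMod (hl M (by simp)) (ih fun N hN => hl N (by simp [hN]))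

theorem isInvertible_multiTwist {n : ℕ} {L : Fin n → X.Modules} (hL : ∀ i, PicF.IsInvertible (L i))
    (a : Fin n → ℕ) : PicF.IsInvertible (FGA.multiTwist L a) := by
  apply isInvertible_tensorList
  intro M hM
  obtain ⟨i, -, rfl⟩ := List.mem_map.1 hM
  exact isInvertible_tensorPow (hL i) _

theorem mk_tensorList {ι : Type*} (l : List ι) (M : ι → X.Modules) (hM : ∀ i, PicF.IsInvertible (M i))
    (h : PicF.IsInvertible (FGA.tensorList (l.map M))) :
    mk (FGA.tensorList (l.map M)) h = (l.map fun i => mk (M i) (hM i)).prod := by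
  induction l with
  | nil => rfl
  | cons i l ih =>
    have h' : PicF.IsInvertible (FGA.tensorList (l.map M)) := isInvertible_tensorList (by
      intro N hN
      obtain ⟨j, -, rfl⟩ := List.mem_map.1 hN
      exact hM j)
    refine Eq.trans ?_ (congrArg (fun c => Grpsch.PicGrp.mk (M i) (hM i) * c) (ih h'))
    rfl

theorem mk_multiTwist {n : ℕ} {L : Fin n → X.Modules} (hL : ∀ i, PicF.IsInvertible (L i))
    (a : Fin n → ℕ) :
    mk (FGA.multiTwist L a) (isInvertible_multiTwist hL a) = ∏ i, mk (L i) (hL i) ^ a i := by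
  have h := mk_tensorList (List.finRange n) (fun i => CohB1.tensorPow (L i) (a i))
    (fun i => isInvertible_tensorPow (hL i) _) (isInvertible_multiTwist hL a)
  refine h.trans ?_
  rw [← List.ofFn_eq_map, List.prod_ofFn]
  exact Finset.prod_congr rfl fun i _ => mk_tensorPow (hL i) (a i)

/-- An inverse for the tensor product gives the inverse class. -/
theorem mk_of_isInverseOf {L M : X.Modules} (hL : PicF.IsInvertible L) (hM : PicF.IsInvertible M)
    (h : ClSub.IsInverseOf L M) : mk L hL = (mk M hM)⁻¹ := by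
  rw [eq_inv_iff_mul_eq_one, mk_mul_mk, mk_eq_one_iff]
  exact h

end General

section Deg

variable {R : Type u} [CommRing R] [IsDomain R] [IsDiscreteValuationRing R]
variable {X : Over (Spec (CommRingCat.of R))} [IsProper X.hom]

lemma isProper_curve (Γ : ArSurf.VertComp R X) :
    IsProper (Γ.curve.left ↘ Spec (CommRingCat.of (IsLocalRing.ResidueField R))) := by
  have h1 : IsProper (Γ.curve.hom ≫ Spec.map (CommRingCat.ofHom (IsLocalRing.residue R))) := by
    rw [← Γ.w]
    infer_instance
  exact IsProper.of_comp Γ.curve.hom (Spec.map (CommRingCat.ofHom (IsLocalRing.residue R)))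

lemma inter_eq (L : X.left.Modules) (Γ : ArSurf.VertComp R X) :
    ArSurf.inter R X L Γ = Curv2.deg (IsLocalRing.ResidueField R) Γ.curve.left
      ((Scheme.Modules.pullback Γ.ι).obj L) 1 := by
  have := isProper_curve Γ
  exact Dix.InterNum.curveDeg_eq _ _ Γ.dim_eq _

lemma inter_congr {L L' : X.left.Modules} (e : L ≅ L') (Γ : ArSurf.VertComp R X) :
    ArSurf.inter R X L Γ = ArSurf.inter R X L' Γ := by
  have := isProper_curve Γ
  rw [inter_eq, inter_eq]
  exact Dix.InterNum.deg_congr _ _ Γ.dim_eq ((Scheme.Modules.pullback Γ.ι).mapIso e)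

lemma inter_tensor {L M : X.left.Modules}
    (hL : PicF.IsInvertible L) (hM : PicF.IsInvertible M) (Γ : ArSurf.VertComp R X) :
    ArSurf.inter R X (CohB1.tensorMod L M) Γ = ArSurf.inter R X L Γ + ArSurf.inter R X M Γ := by
  have := isProper_curve Γ
  have e := @asIso _ _ _ _ (pullTensor Γ.ι L M) (isIso_pullTensor Γ.ι hL hM)
  rw [inter_eq, inter_eq, inter_eq, Dix.InterNum.deg_congr _ _ Γ.dim_eq e]
  exact Dix.InterNum.deg_tensor _ _ Γ.dim_eq (isInvertible_pullback Γ.ι hL)
    (isInvertible_pullback Γ.ι hM)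

/-- The degree of a class on a vertical component. -/
noncomputable def deg (Γ : ArSurf.VertComp R X) : Pic X.left → ℤ :=
  Quotient.lift (fun L => ArSurf.inter R X L.1 Γ) (fun _ _ ⟨e⟩ => inter_congr e Γ)

theorem deg_mk (Γ : ArSurf.VertComp R X) {L : X.left.Modules} (hL : PicF.IsInvertible L) :
    deg Γ (mk L hL) = ArSurf.inter R X L Γ := rfl

theorem deg_mul (Γ : ArSurf.VertComp R X) (a b : Pic X.left) : deg Γ (a * b) = deg Γ a + deg Γ b := by
  induction a using ind with | _ L hL => ?_
  induction b using ind with | _ M hM => ?_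
  exact inter_tensor hL hM Γ

/-- The degree as a homomorphism from the Picard group. -/
noncomputable def degHom (Γ : ArSurf.VertComp R X) : Pic X.left →* Multiplicative ℤ :=
  MonoidHom.mk' (fun a => Multiplicative.ofAdd (deg Γ a)) fun a b => by
    rw [deg_mul, ofAdd_add]

theorem degHom_apply (Γ : ArSurf.VertComp R X) (a : Pic X.left) :
    degHom Γ a = Multiplicative.ofAdd (deg Γ a) := rfl

theorem deg_eq (Γ : ArSurf.VertComp R X) (a : Pic X.left) :
    deg Γ a = Multiplicative.toAdd (degHom Γ a) := rfl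

theorem deg_one (Γ : ArSurf.VertComp R X) : deg Γ 1 = 0 := by
  rw [deg_eq, map_one]; rfl

theorem deg_inv (Γ : ArSurf.VertComp R X) (a : Pic X.left) : deg Γ a⁻¹ = - deg Γ a := by
  rw [deg_eq, map_inv]; rfl

theorem deg_pow (Γ : ArSurf.VertComp R X) (a : Pic X.left) (n : ℕ) :
    deg Γ (a ^ n) = n * deg Γ a := by
  rw [deg_eq, map_pow, toAdd_pow, nsmul_eq_mul, ← deg_eq]

theorem deg_zpow (Γ : ArSurf.VertComp R X) (a : Pic X.left) (n : ℤ) :
    deg Γ (a ^ n) = n * deg Γ a := by
  rw [deg_eq, map_zpow, toAdd_zpow, smul_eq_mul, ← deg_eq]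

theorem deg_prod (Γ : ArSurf.VertComp R X) {ι : Type*} (s : Finset ι) (a : ι → Pic X.left) :
    deg Γ (∏ i ∈ s, a i) = ∑ i ∈ s, deg Γ (a i) := by
  rw [deg_eq, map_prod, toAdd_prod]
  rfl

theorem deg_prod_zpow (Γ : ArSurf.VertComp R X) {ι : Type*} (s : Finset ι) (a : ι → Pic X.left)
    (v : ι → ℤ) : deg Γ (∏ i ∈ s, a i ^ v i) = ∑ i ∈ s, v i * deg Γ (a i) := by
  rw [deg_prod]
  exact Finset.sum_congr rfl fun i _ => deg_zpow Γ _ _

end Deg

end Groth.Agent.Models.H65.PicDeg
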