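import Groth.Agent.Models.H65.GenTriv
import Mathlib.Algebra.BigOperators.Group.Finset.Basic

/-!
# Exactness of `0 → Pic(X)[h] → Pic(C)[h] → Pic(T)`

Group-theoretic part of S3342: everything is deduced from the statement of S3340 for the given model.
-/

set_option autoImplicit false
universe u

open CategoryTheory CategoryTheory.Limits AlgebraicGeometry Opposite TopologicalSpace

namespace Groth.Agent.Models.H65.TorsExact

open Groth.Agent.Grpsch.PicGrp Groth.Agent.Fdesc.LocGen Groth.Agent.Dix.IdealModCartier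
open Groth.Agent.Models.H65.PicDeg

/-- An element of a commutative group: if `a ^ (h * d) = 1` and `h`, `d` are coprime, some power `b` of `a`
is killed by `h` and has the same image as `a` under every homomorphism which kills `a ^ h`. -/
theorem exists_pow {G : Type*} [CommGroup G] {h d : ℕ} (hcop : Nat.Coprime h d) (a : G)
    (ha : (a ^ h) ^ d = 1) :
    ∃ z : ℤ, (a ^ z) ^ h = 1 ∧ ∀ (G' : Type*) [CommGroup G'] (φ : G →* G'), φ a ^ h = 1 →
      φ (a ^ z) = φ a := by
  obtain ⟨x, y, hxy⟩ : ∃ x y : ℤ, (h : ℤ) * x + (d : ℤ) * y = 1 := by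
    refine ⟨Nat.gcdA h d, Nat.gcdB h d, ?_⟩
    rw [← Nat.gcd_eq_gcd_ab, Nat.Coprime.gcd_eq_one hcop]
    rfl
  refine ⟨(d : ℤ) * y, ?_, ?_⟩
  · have h1 : a ^ ((h * d : ℕ) : ℤ) = 1 := by
      rw [zpow_natCast, pow_mul, ha]
    rw [← zpow_natCast, ← zpow_mul]
    rw [show (d : ℤ) * y * (h : ℤ) = ((h * d : ℕ) : ℤ) * y by push_cast; ring, zpow_mul, h1, one_zpow]
  · intro G' _ φ hφ
    have h2 : (d : ℤ) * y = 1 - (h : ℤ) * x := by linarith
    rw [map_zpow, h2, zpow_sub, zpow_one, zpow_mul, zpow_natCast, hφ, one_zpow, inv_one, mul_one]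

variable {R : Type u} [CommRing R] [IsDomain R] [IsDiscreteValuationRing R]
  {C X : Scheme.{u}} {f : C ⟶ Spec (CommRingCat.of (FractionRing R))} {p : X ⟶ Spec (CommRingCat.of R)}
  {g : C ⟶ X}

theorem main [IsProper p]
    (hg : IsPullback g f p (Spec.map (CommRingCat.ofHom (algebraMap R (FractionRing R)))))
    {n : ℕ} (Γ : Fin n → ArSurf.VertComp R (Over.mk p))
    (L : Fin n → X.Modules) (hL : ∀ i, ClSub.IsInverseOf (L i) (ClSub.idealMod (Γ i).ι.ker))
    (h d : ℕ) (hcop : Nat.Coprime h d)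
    (H : ∀ (M : X.Modules), PicF.IsInvertible M →
      Nonempty ((Scheme.Modules.pullback g).obj M ≅ Coh.structureModule C) →
      (∀ i, ArSurf.inter R (Over.mk p) M (Γ i) = 0) →
      Nonempty (CohB1.tensorPow M d ≅ Coh.structureModule X))
    (N : C.Modules) (hN : PicF.IsInvertible N) (hNt : Nonempty (CohB1.tensorPow N h ≅ Coh.structureModule C))
    (M : X.Modules) (hM : PicF.IsInvertible M) (hMN : Nonempty ((Scheme.Modules.pullback g).obj M ≅ N))
    (v : Fin n → ℤ)
    (hv : ∀ i, ArSurf.inter R (Over.mk p) M (Γ i) = ∑ j, ArSurf.inter R (Over.mk p) (L j) (Γ i) * v j) :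
    ∃ M' : X.Modules, PicF.IsInvertible M' ∧ Nonempty (CohB1.tensorPow M' h ≅ Coh.structureModule X) ∧
      Nonempty ((Scheme.Modules.pullback g).obj M' ≅ N) := by
  have hp : IsProper (Over.mk p).hom := (inferInstance : IsProper p)
  have hLi : ∀ i, PicF.IsInvertible (L i) := fun i => (isInvertible_of_isInverseOf (hL i)).1
  -- classes
  let m : Pic X := mk M hM
  let l : Fin n → Pic X := fun i => mk (L i) (hLi i)
  let a : Pic X := m * (∏ j, l j ^ v j)⁻¹
  have hm : pull g m = mk N hN := by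
    rw [show m = mk M hM from rfl, pull_mk, mk_eq_iff]
    exact hMN
  have hl : ∀ i, pull g (l i) = 1 := fun i => GenTriv.pull_mk_eq_one hg (Γ i) (hL i) (hLi i)
  have ha : pull g a = mk N hN := by
    rw [show a = m * (∏ j, l j ^ v j)⁻¹ from rfl, map_mul, map_inv, map_prod, hm,
      Finset.prod_eq_one (fun j _ => by rw [map_zpow, hl, one_zpow]), inv_one, mul_one]
  have hN1 : mk N hN ^ h = 1 := by
    rw [← mk_tensorPow hN, mk_eq_one_iff]
    exact hNt
  have hdeg : ∀ i, deg (X := Over.mk p) (Γ i) a = 0 := by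
    intro i
    have h1 : deg (X := Over.mk p) (Γ i) m = _ := hv i
    have h2 : deg (X := Over.mk p) (Γ i) (∏ j, l j ^ v j) =
        ∑ j, v j * ArSurf.inter R (Over.mk p) (L j) (Γ i) :=
      deg_prod_zpow (X := Over.mk p) (Γ i) Finset.univ l v
    have h3 : deg (X := Over.mk p) (Γ i) a =
        deg (X := Over.mk p) (Γ i) m + deg (X := Over.mk p) (Γ i) (∏ j, l j ^ v j)⁻¹ :=
      deg_mul (X := Over.mk p) (Γ i) m _
    rw [h3, deg_inv, h1, h2, ← sub_eq_add_neg, sub_eq_zero]
    exact Finset.sum_congr rfl fun j _ => mul_comm _ _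
  have hah : (a ^ h) ^ d = 1 := by
    obtain ⟨A, hA, hA'⟩ := exists_mk (a ^ h)
    have h1 : pull g (mk A hA) = 1 := by rw [← hA', map_pow, ha, hN1]
    rw [pull_mk, mk_eq_one_iff] at h1
    have h2 : ∀ i, ArSurf.inter R (Over.mk p) A (Γ i) = 0 := by
      intro i
      have h3 : deg (X := Over.mk p) (Γ i) (a ^ h) = 0 := by
        rw [deg_pow (X := Over.mk p) (Γ i) a h, hdeg, mul_zero]
      rw [hA'] at h3
      exact h3
    rw [hA', ← mk_tensorPow hA, mk_eq_one_iff]
    exact H A hA h1 h2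
  obtain ⟨z, hz, hz'⟩ := exists_pow hcop a hah
  obtain ⟨M', hM', hz''⟩ := exists_mk (a ^ z)
  refine ⟨M', hM', ?_, ?_⟩
  · rw [← mk_eq_one_iff (isInvertible_tensorPow hM' h), mk_tensorPow hM', ← hz'', hz]
  · have h4 := hz' (Pic C) (pull g) (by rw [ha, hN1])
    rw [hz'', ha, pull_mk, mk_eq_iff] at h4
    exact h4

end Groth.Agent.Models.H65.TorsExact
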